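import Cfsg.Agent.PermB.Coordinates
import Mathlib.FieldTheory.Finite.Basic
import Mathlib.Algebra.Group.Subgroup.Finite
import Mathlib.GroupTheory.Index

/-! A group with an irreducible commutative subgroup of index two acts linearly when the field has
odd degree. -/

set_option autoImplicit false

namespace Cfsg.Agent.PermB

/-- An involutory endomorphism of a field of odd degree is trivial. -/
theorem eq_self_of_involutive {K : Type*} [Field K] [Fintype K] {p f : ℕ} (hp : p.Prime)
    (hp2 : p ≠ 2) (hfo : Odd f) (hcard : Fintype.card K = p ^ f) (φ : K →+* K)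
    (hφ : ∀ y, φ (φ y) = y) (y : K) : φ y = y := by
  classical
  by_contra hy
  have h2 : (2 : K) ≠ 0 := fun h => by
    have hc : ringChar K = 2 := CharP.ringChar_of_prime_eq_zero Nat.prime_two (by exact_mod_cast h)
    have h' := FiniteField.even_card_iff_char_two.1 hc
    rw [hcard, Nat.pow_mod, hp.eq_two_or_odd.resolve_left hp2] at h'
    simp at h'
  set δ := y - φ y with hδdef
  have hδ : δ ≠ 0 := sub_ne_zero.2 (Ne.symm hy)
  have hφδ : φ δ = -δ := by rw [hδdef, map_sub, hφ]; ring
  let P : AddSubgroup K :=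
    { carrier := {u | φ u = u}
      zero_mem' := map_zero φ
      add_mem' := fun {u v} (hu : φ u = u) (hv : φ v = v) => by
        show φ (u + v) = u + v
        rw [map_add, hu, hv]
      neg_mem' := fun {u} (hu : φ u = u) => by
        show φ (-u) = -u
        rw [map_neg, hu] }
  have hcd : Nat.card (P × P) = Nat.card K := by
    refine Nat.card_eq_of_bijective (fun w : P × P => (w.1 : K) + δ * (w.2 : K)) ⟨?_, ?_⟩
    · rintro ⟨u, v⟩ ⟨u', v'⟩ h
      have h' : (u : K) + δ * v = u' + δ * v' := h
      have h'' := congrArg φ h'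
      rw [map_add, map_add, map_mul, map_mul, hφδ, show φ (u : K) = u from u.2,
        show φ (u' : K) = u' from u'.2, show φ (v : K) = v from v.2,
        show φ (v' : K) = v' from v'.2] at h''
      have hu : (u : K) = u' := mul_left_cancel₀ h2 (by linear_combination h' + h'')
      have hv : (v : K) = v' := mul_left_cancel₀ hδ (by linear_combination h' - hu)
      exact Prod.ext (Subtype.ext hu) (Subtype.ext hv)
    · intro z
      refine ⟨(⟨(z + φ z) / 2, ?_⟩, ⟨(z - φ z) / (2 * δ), ?_⟩), ?_⟩
      · show φ _ = _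
        rw [map_div₀, map_add, hφ, map_ofNat]
        ring
      · show φ _ = _
        rw [map_div₀, map_sub, hφ, map_mul, hφδ, map_ofNat]
        field_simp
        ring
      · show (z + φ z) / 2 + δ * ((z - φ z) / (2 * δ)) = z
        field_simp
        ring
  rw [Nat.card_prod, Nat.card_eq_fintype_card (α := K), hcard] at hcd
  obtain ⟨i, -, hi⟩ := (Nat.dvd_prime_pow hp).1 (Dvd.intro _ hcd)
  rw [hi, ← pow_add] at hcd
  have := Nat.pow_right_injective hp.two_le hcd
  obtain ⟨k, rfl⟩ := hfo
  omega

/-- A group of automorphisms with an irreducible commutative subgroup of index two is commutative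
if the module has odd prime power order with odd exponent. -/
theorem commutative_of_index_two_irreducible {A : Type*} [AddCommGroup A] [Finite A]
    [Nontrivial A] {p f : ℕ} (hp : p.Prime) (hp2 : p ≠ 2) (hfo : Odd f)
    (hcard : Nat.card A = p ^ f) {X : Type*} [Group X] (ρ : X →* AddMonoid.End A)
    (hρ : Function.Injective ρ) (L : Subgroup X) (hL : L.index = 2)
    (hLc : IsMulCommutative L)
    (hirr : ∀ M : AddSubgroup A, (∀ i : L, ∀ x ∈ M, ρ i x ∈ M) → M = ⊥ ∨ M = ⊤) :
    IsMulCommutative X := by
  have hLn := Subgroup.normal_of_index_eq_two hL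
  obtain ⟨a, ha⟩ := exists_ne (0 : A)
  have hmul : ∀ (x y : X) (v : A), ρ (x * y) v = ρ x (ρ y v) := fun x y v => by
    rw [map_mul]; rfl
  have hone : ∀ v : A, ρ 1 v = v := fun v => by rw [map_one]; rfl
  obtain ⟨K, iK, iF, ψ, χ, hψ1, hψ⟩ := exists_field_of_irreducible (ρ.comp L.subtype)
    (fun i j => by
      show ρ i * ρ j = ρ j * ρ i
      rw [← map_mul, ← map_mul, ← Subgroup.coe_mul, ← Subgroup.coe_mul, hLc.is_comm.comm i j])
    hirr a ha
  have hcardK : Fintype.card K = p ^ f := by
    rw [← hcard, ← Nat.card_eq_fintype_card]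
    exact (Nat.card_congr ψ.toEquiv).symm
  have hlin : ∀ h : X, ∃ c : K, ∀ y, ψ (ρ h y) = c * ψ y := by
    intro h
    let T : K →+ K := (ψ.toAddMonoidHom.comp (ρ h)).comp ψ.symm.toAddMonoidHom
    have hT : ∀ y, T y = ψ (ρ h (ψ.symm y)) := fun y => rfl
    let cl : L → L := fun l => ⟨h * l * h⁻¹, hLn.conj_mem l l.2 h⟩
    have hTl : ∀ (l : L) (y : K), T (χ l * y) = χ (cl l) * T y := by
      intro l y
      have e : ψ.symm (χ l * y) = ρ l (ψ.symm y) := by
        rw [AddEquiv.symm_apply_eq]
        have := hψ l (ψ.symm y)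
        rw [AddEquiv.apply_symm_apply] at this
        exact this.symm
      rw [hT, hT, e, ← hψ]
      show ψ (ρ h (ρ l (ψ.symm y))) = ψ (ρ (h * l * h⁻¹) (ρ h (ψ.symm y)))
      rw [← hmul, ← hmul, inv_mul_cancel_right]
    set c := T 1 with hc
    have hc0 : c ≠ 0 := by
      intro e
      rw [hc, hT, EmbeddingLike.map_eq_zero_iff] at e
      have := congrArg (ρ h⁻¹) e
      rw [← hmul, inv_mul_cancel, hone, map_zero, EmbeddingLike.map_eq_zero_iff] at this
      exact one_ne_zero this
    let M : AddSubgroup A :=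
      { carrier := {v | ∀ y, T (ψ v * y) = (T (ψ v) / c) * T y}
        zero_mem' := fun y => by simp
        add_mem' := fun {u v} hu hv y => by
          rw [map_add ψ, add_mul, map_add, map_add, hu y, hv y]; ring
        neg_mem' := fun {u} hu y => by
          rw [map_neg ψ, neg_mul, map_neg, map_neg, hu y]; ring }
    have hM : M = ⊤ := by
      refine (hirr M fun i v hv y => ?_).resolve_left ?_
      · have e : ψ (ρ i v) = χ i * ψ v := hψ i v
        rw [e, mul_assoc, hTl, hTl, hv y]
        ring
      · intro e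
        have : a ∈ M := fun y => by rw [hψ1, one_mul, ← hc, div_self hc0, one_mul]
        rw [e] at this
        exact ha this
    have hall : ∀ z y : K, T (z * y) = (T z / c) * T y := fun z y => by
      have h0 : ψ.symm z ∈ M := hM ▸ AddSubgroup.mem_top _
      have := h0 y
      rwa [AddEquiv.apply_symm_apply] at this
    let φ : K →+* K :=
      { toFun := fun z => T z / c
        map_one' := by rw [← hc, div_self hc0]
        map_mul' := fun z y => by rw [hall]; ring
        map_zero' := by simp
        map_add' := fun z y => by rw [map_add, add_div] }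
    have hTφ : ∀ z, T z = c * φ z := fun z => by
      show T z = c * (T z / c)
      rw [mul_div_cancel₀ _ hc0]
    have hTT : ∀ y, T (T y) = χ ⟨h * h, Subgroup.mul_self_mem_of_index_two hL h⟩ * y := by
      intro y
      rw [hT, hT, AddEquiv.symm_apply_apply, ← hmul]
      have := hψ ⟨h * h, Subgroup.mul_self_mem_of_index_two hL h⟩ (ψ.symm y)
      rw [AddEquiv.apply_symm_apply] at this
      exact this
    have hφφ : ∀ y, φ (φ y) = y := by
      intro y
      have e1 := hTT y
      have e2 := hTT 1
      rw [hTφ y, hTφ, map_mul] at e1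
      rw [hTφ 1, map_one, mul_one, hTφ, mul_one] at e2
      rw [← e2] at e1
      have hφc : φ c ≠ 0 := (map_ne_zero φ).2 hc0
      exact mul_left_cancel₀ (mul_ne_zero hc0 hφc) (by linear_combination e1)
    refine ⟨c, fun y => ?_⟩
    have h1 := hTφ (ψ y)
    rw [eq_self_of_involutive hp hp2 hfo hcardK φ hφφ, hT, AddEquiv.symm_apply_apply] at h1
    exact h1
  refine ⟨⟨fun g h => hρ (AddMonoidHom.ext fun v => ψ.injective ?_)⟩⟩
  obtain ⟨c, hc⟩ := hlin g
  obtain ⟨d, hd⟩ := hlin h
  show ψ (ρ (g * h) v) = ψ (ρ (h * g) v)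
  rw [hmul, hmul, hc, hd, hd, hc]
  ring

end Cfsg.Agent.PermB
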