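import Cfsg.Agent.PermB.Sharp3Index
import Cfsg.Agent.PermB.Recognition
import Cfsg.Agent.PermB.Semilinear

/-! Sharply triply transitive groups of even degree whose point kernel has odd exponent degree. -/

set_option autoImplicit false

namespace Cfsg.Agent.PermB.ZData

open MulAction

variable {G α : Type*} [Group G] [MulAction G α]

/-- The swapper with a further fixed point inverts a subgroup of index two of the two point
stabiliser. -/
theorem exists_inverted_index_two [Finite α] [Finite G] (hz : ZData G α) (hcard : 3 ≤ Nat.card α)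
    (heven : Even (Nat.card α)) (h : IsMultiplyPretransitive G α 3) {a b c : α} (hab : a ≠ b)
    (hca : c ≠ a) (hcb : c ≠ b) {s : G} (hsa : s • a = b) (hsb : s • b = a) (hsc : s • c = c) :
    ∃ L : Subgroup (H2 (G := G) a b), L.index = 2 ∧
      ∀ l ∈ L, s * (l : G) * s⁻¹ = (l : G)⁻¹ := by
  classical
  set X : Subgroup G := H2 (G := G) a b with hXdef
  have hss : s * s = 1 := hz.three _ hab hcb.symm hca.symm (sq_mem_H2 hsa hsb).1
    (sq_mem_H2 hsa hsb).2 (by rw [mul_smul, hsc, hsc])
  have hs' : s⁻¹ = s := inv_eq_of_mul_eq_one_right hss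
  have hs1 : s ≠ 1 := fun e => hab (by rw [← hsa, e, one_smul])
  have hd : Even (Nat.card X) := hz.even_H2_of_sharp3 hcard heven h hab
  have hconj2 : ∀ k : G, s * (s * k * s⁻¹) * s⁻¹ = k := fun k => by
    rw [hs', show s * (s * k * s) * s = (s * s) * k * (s * s) by group, hss, one_mul, mul_one]
  let σ : X ≃* X :=
    { toFun := fun k => ⟨s * k * s⁻¹, swap_conj_mem hsa hsb k.2⟩
      invFun := fun k => ⟨s * k * s⁻¹, swap_conj_mem hsa hsb k.2⟩
      left_inv := fun k => Subtype.ext (hconj2 k)
      right_inv := fun k => Subtype.ext (hconj2 k)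
      map_mul' := fun g k => Subtype.ext (by simp [mul_assoc]) }
  have hσ : ∀ k : X, σ (σ k) = k := fun k => σ.left_inv k
  obtain ⟨L, hL, hLinv⟩ := IndexTwo.exists_invariant_index_two σ hσ
    (hz.exists_index_two_H2 hcard heven h hab)
  -- the unique involution
  obtain ⟨t, htH, htt, ht1⟩ : ∃ t : G, t ∈ X ∧ t * t = 1 ∧ t ≠ 1 := by
    obtain ⟨t, ht⟩ := exists_prime_orderOf_dvd_card' (G := X) 2 (even_iff_two_dvd.1 hd)
    refine ⟨t, t.2, ?_, fun e => ?_⟩
    · rw [← pow_two, ← SubmonoidClass.coe_pow, ← ht, pow_orderOf_eq_one]; rfl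
    · rw [← Subgroup.orderOf_coe, e, orderOf_one] at ht; omega
  have hst : s * t * s⁻¹ = t := by
    refine hz.involution_unique hab hcard hd (swap_conj_mem hsa hsb htH) ?_ (fun e => ht1 ?_) htH htt
      ht1
    · rw [show (s * t * s⁻¹) * (s * t * s⁻¹) = s * (t * t) * s⁻¹ by group, htt]; group
    · rw [show t = s⁻¹ * (s * t * s⁻¹) * s by group, e]; group
  have hfixpt : ∀ k : G, s * k * s⁻¹ = k → s • k • c = k • c := fun k e => by
    rw [← mul_smul, show s * k = k * s by rw [← mul_inv_eq_iff_eq_mul]; exact e, mul_smul, hsc]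
  have htc : t • c ≠ c := fun e => ht1
    (hz.three t hab hcb.symm hca.symm (mem_H2.1 htH).1 (mem_H2.1 htH).2 e)
  have hcentral : ∀ k ∈ X, s * k * s⁻¹ = k → k = 1 ∨ k = t := by
    intro k hk e
    by_contra hne
    push Not at hne
    have h1 : k • c ≠ c := fun e' => hne.1
      (hz.three k hab hcb.symm hca.symm (mem_H2.1 hk).1 (mem_H2.1 hk).2 e')
    have h2 : k • c ≠ t • c := fun e' => hne.2
      (hz.eq_of_agree hab hcb.symm hca.symm ((mem_H2.1 hk).1.trans (mem_H2.1 htH).1.symm)
        ((mem_H2.1 hk).2.trans (mem_H2.1 htH).2.symm) e')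
    have hle := (hz.card_fixedBy_involution hss hs1).1
    have h3 := Nat.card_le_card_of_injective
      (![⟨c, hsc⟩, ⟨t • c, hfixpt t hst⟩, ⟨k • c, hfixpt k e⟩] : Fin 3 → fixedBy α s) (by
        intro i j hij
        fin_cases i <;> fin_cases j <;>
          first
            | rfl
            | exact absurd (congrArg Subtype.val hij) htc
            | exact absurd (congrArg Subtype.val hij).symm htc
            | exact absurd (congrArg Subtype.val hij) h1
            | exact absurd (congrArg Subtype.val hij).symm h1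
            | exact absurd (congrArg Subtype.val hij) h2
            | exact absurd (congrArg Subtype.val hij).symm h2)
    rw [Nat.card_eq_fintype_card, Fintype.card_fin] at h3
    omega
  -- the elements `k⁻¹ σ k` fill `L`
  haveI : Fintype X := Fintype.ofFinite X
  let F : X → X := fun k => k⁻¹ * σ k
  have hFL : ∀ k, F k ∈ L := fun k => by
    rw [Subgroup.mul_mem_iff_of_index_two hL, inv_mem_iff]
    exact ⟨fun hk => hLinv k hk, fun hk => by simpa [hσ] using hLinv _ hk⟩
  have hfib : ∀ v ∈ Finset.univ.image F, (Finset.univ.filter fun k => F k = v).card ≤ 2 := by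
    intro v hv
    obtain ⟨k₀, -, rfl⟩ := Finset.mem_image.1 hv
    refine (Finset.card_le_card (t := {k₀, (⟨t, htH⟩ : X) * k₀}) fun k hk => ?_).trans
      Finset.card_le_two
    rw [Finset.mem_filter] at hk
    have e : σ (k * k₀⁻¹) = k * k₀⁻¹ := by
      rw [map_mul, map_inv, show σ k = k * F k from (mul_inv_cancel_left k (σ k)).symm, hk.2]
      simp only [F]
      group
    rw [Finset.mem_insert, Finset.mem_singleton]
    rcases hcentral _ (k * k₀⁻¹).2 (congrArg Subtype.val e) with h1 | h1
    · exact Or.inl (mul_inv_eq_one.1 (Subtype.ext h1))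
    · refine Or.inr ?_
      rw [← show k * k₀⁻¹ = (⟨t, htH⟩ : X) from Subtype.ext h1, inv_mul_cancel_right]
  have hcardX : Nat.card X ≤ 2 * (Finset.univ.image F).card := by
    rw [Nat.card_eq_fintype_card, ← Finset.card_univ]
    exact Finset.card_le_mul_card_image _ 2 hfib
  have himg : Finset.univ.image F = Finset.univ.filter fun l => l ∈ L := by
    refine Finset.eq_of_subset_of_card_le (fun v hv => ?_) ?_
    · obtain ⟨k, -, rfl⟩ := Finset.mem_image.1 hv
      exact Finset.mem_filter.2 ⟨Finset.mem_univ _, hFL k⟩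
    · have e := Subgroup.card_mul_index L
      rw [hL] at e
      have e' : Nat.card L = (Finset.univ.filter fun l => l ∈ L).card := by
        rw [← Fintype.card_subtype, Nat.card_eq_fintype_card]
      omega
  refine ⟨L, hL, fun l hl => ?_⟩
  obtain ⟨k, -, rfl⟩ := Finset.mem_image.1
    (himg.symm ▸ Finset.mem_filter.2 ⟨Finset.mem_univ l, hl⟩ : l ∈ Finset.univ.image F)
  have e : σ (F k) = (F k)⁻¹ := by simp [F, hσ]
  exact congrArg Subtype.val e

/-- Sharply triply transitive groups of degree `p ^ f + 1` with `p` and `f` odd. -/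
theorem exists_mulEquiv_pgl_of_odd [Finite α] [Finite G] (hz : ZData G α) {p f : ℕ}
    (hp : p.Prime) (hp2 : p ≠ 2) (hfo : Odd f) (hα : Nat.card α = p ^ f + 1)
    (h : IsMultiplyPretransitive G α 3) :
    ∃ (K : Type) (_ : Field K) (_ : Fintype K), Fintype.card K + 1 = Nat.card α ∧
      Nonempty (G ≃* Matrix.ProjGenLinGroup (Fin 2) K) := by
  classical
  have hqodd : p ^ f % 2 = 1 := by
    rw [Nat.pow_mod, hp.eq_two_or_odd.resolve_left hp2]; simp
  have hq3 : 3 ≤ p ^ f := by
    have h1 := Nat.le_self_pow (by rintro rfl; simp at hfo : f ≠ 0) p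
    have h2 := hp.two_le
    omega
  have hcard : 3 ≤ Nat.card α := by omega
  have heven : Even (Nat.card α) := by rw [hα, Nat.even_iff]; omega
  haveI : Nontrivial α := Finite.one_lt_card_iff_nontrivial.1 (by omega)
  obtain ⟨a, b, hab⟩ := exists_pair_ne α
  obtain ⟨c, hca, hcb⟩ := exists_ne_ne hcard a b
  obtain ⟨s, hsa, hsb, hsc⟩ := PermLib.three_pretransitive_iff.1 h a b c b a c
    hab hca.symm hcb.symm hab.symm hcb.symm hca.symm
  set X : Subgroup G := H2 (G := G) a b with hXdef
  obtain ⟨L, hL, hinv⟩ :=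
    hz.exists_inverted_index_two hcard heven h hab hca hcb hsa hsb hsc
  obtain ⟨N, hN, hNc, -⟩ := hz.exists_kernel_of_sharp3 hcard h a
  have hdn : Nat.card X + 2 = Nat.card α := hz.card_H2_of_sharp3 hcard h hab
  have hNcard := hN.card_add_one hab.symm
  set L₀ : Subgroup G := L.map X.subtype with hL₀def
  have hL₀ : L₀ ≤ X := Subgroup.map_subtype_le L
  have hinv₀ : ∀ l ∈ L₀, s * l * s⁻¹ = l⁻¹ := by
    rintro _ ⟨l, hl, rfl⟩
    exact hinv l hl
  have hL₀card : Nat.card L₀ = Nat.card L :=
    Subgroup.card_map_of_injective X.subtype_injective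
  have hLmul := Subgroup.card_mul_index L
  rw [hL] at hLmul
  have hLX : Nat.card L * 2 = Nat.card X := hLmul
  have hLc : IsMulCommutative L := by
    have h0 := isMulCommutative_of_inverted hinv₀
    refine ⟨⟨fun i j => Subtype.ext (Subtype.ext ?_)⟩⟩
    show ((i : X) : G) * ((j : X) : G) = ((j : X) : G) * ((i : X) : G)
    exact congrArg Subtype.val
      (h0.is_comm.comm ⟨((i : X) : G), ⟨i, i.2, rfl⟩⟩ ⟨((j : X) : G), ⟨j, j.2, rfl⟩⟩)
  -- the kernel as a module
  letI : CommGroup N := { (inferInstance : Group N) with mul_comm := fun u v => hNc.is_comm.comm u v }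
  let cj : X → N → N := fun x u => ⟨(x : G) * u * (x : G)⁻¹, hN.conj x (mem_H2.1 x.2).1 u u.2⟩
  let F : X → AddMonoid.End (Additive N) := fun x =>
    MonoidHom.toAdditive (MonoidHom.mk' (cj x) fun u v => Subtype.ext (by simp [cj, mul_assoc]))
  let ρ : X →* AddMonoid.End (Additive N) :=
    { toFun := F
      map_one' := by
        refine AddMonoidHom.ext fun u => ?_
        show Additive.ofMul (cj 1 u.toMul) = u
        refine Additive.toMul.injective (Subtype.ext ?_)
        simp [cj]
      map_mul' := fun x y => by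
        refine AddMonoidHom.ext fun u => ?_
        show Additive.ofMul (cj (x * y) u.toMul) = Additive.ofMul (cj x (cj y u.toMul))
        refine Additive.toMul.injective (Subtype.ext ?_)
        simp [cj, mul_assoc] }
  have hρ : ∀ (x : X) (v : Additive N),
      (((ρ x v).toMul : N) : G) = (x : G) * (v.toMul : G) * (x : G)⁻¹ := fun x v => rfl
  haveI : Finite (Additive N) := inferInstanceAs (Finite N)
  have hA : Nat.card (Additive N) = p ^ f := by
    show Nat.card N = p ^ f
    omega
  haveI : Nontrivial (Additive N) := Finite.one_lt_card_iff_nontrivial.1 (by omega)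
  have hfpf : ∀ (x : X) (v : Additive N), v ≠ 0 → ρ x v = v → x = 1 := by
    intro x v hv hxv
    refine Subtype.ext (hN.eq_one_of_commute hz hab.symm x.2 v.toMul.2 (fun e => hv ?_) ?_)
    · exact Additive.toMul.injective (Subtype.ext e)
    · rw [← hρ, hxv]
  have hρinj : Function.Injective ρ := by
    rw [injective_iff_map_eq_one]
    intro x hx
    obtain ⟨v, hv⟩ := exists_ne (0 : Additive N)
    refine hfpf x v hv ?_
    rw [hx]; rfl
  have hirr : ∀ M : AddSubgroup (Additive N), (∀ i : L, ∀ x ∈ M, ρ i x ∈ M) →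
      M = ⊥ ∨ M = ⊤ := by
    intro M hM
    by_contra hne
    push Not at hne
    obtain ⟨m, hm, hm0⟩ := (M.bot_or_exists_ne_zero).resolve_left hne.1
    have hle : Nat.card (Option L) ≤ Nat.card M := by
      refine Nat.card_le_card_of_injective
        (fun o : Option L => o.elim (0 : M) fun i => ⟨ρ i m, hM i m hm⟩) ?_
      have hne0 : ∀ i : L, ρ i m ≠ 0 := by
        intro i e
        have e' : ρ ((i : X)⁻¹ * i) m = 0 := by
          rw [map_mul]
          show ρ (i : X)⁻¹ (ρ i m) = 0
          rw [e, map_zero]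
        rw [inv_mul_cancel, map_one] at e'
        exact hm0 e'
      rintro (_ | i) (_ | j) e
      · rfl
      · exact absurd (congrArg Subtype.val e).symm (hne0 j)
      · exact absurd (congrArg Subtype.val e) (hne0 i)
      · have e' : ρ i m = ρ j m := congrArg Subtype.val e
        refine congrArg some (Subtype.ext (inv_mul_eq_one.1 (hfpf ((j : X)⁻¹ * i) m hm0 ?_)).symm)
        rw [map_mul]
        show ρ (j : X)⁻¹ (ρ i m) = m
        rw [e']
        show (ρ (j : X)⁻¹ * ρ j) m = m
        rw [← map_mul, inv_mul_cancel, map_one]; rfl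
    rw [Finite.card_option] at hle
    obtain ⟨k, hk⟩ := M.card_addSubgroup_dvd_card
    rw [hA] at hk
    have hk1 : k ≠ 1 := fun e => hne.2 (M.eq_top_of_card_eq (by rw [hA, hk, e, mul_one]))
    have hk3 : 3 ≤ k := by
      rcases k with _ | _ | _ | k
      · rw [mul_zero] at hk; omega
      · exact absurd rfl hk1
      · omega
      · omega
    have : Nat.card M * 3 ≤ p ^ f := hk ▸ Nat.mul_le_mul_left _ hk3
    omega
  have hHc : IsMulCommutative X :=
    commutative_of_index_two_irreducible hp hp2 hfo hA ρ hρinj L hL hLc hirr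
  by_cases hLe : Even (Nat.card L)
  · exact exists_mulEquiv_pgl' hz hN hab hca hcb hNc hsa hsb hsc hHc hL₀ hinv₀ hdn
      (Or.inr ⟨by omega, hL₀card.symm ▸ hLe⟩)
  refine exists_mulEquiv_pgl' hz hN hab hca hcb hNc hsa hsb hsc hHc le_rfl ?_ hdn (Or.inl hdn)
  -- an involution outside `L`
  obtain ⟨t, ht⟩ := exists_prime_orderOf_dvd_card' (G := X) 2 (by omega)
  have htL : t ∉ L := fun htL => hLe (even_iff_two_dvd.2 (by
    rw [← ht, ← Subgroup.orderOf_mk t htL]; exact orderOf_dvd_natCard _))
  have htt : (t : G) * t = 1 := by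
    rw [← pow_two, ← SubmonoidClass.coe_pow, ← ht, pow_orderOf_eq_one]; rfl
  have ht1 : (t : G) ≠ 1 := fun e => by rw [← Subgroup.orderOf_coe, e, orderOf_one] at ht; omega
  have hst : s * (t : G) * s⁻¹ = (t : G)⁻¹ := by
    rw [inv_eq_of_mul_eq_one_right htt]
    refine hz.involution_unique hab hcard (by rw [Nat.even_iff]; omega)
      (swap_conj_mem hsa hsb t.2) ?_ (fun e => ht1 ?_) t.2 htt ht1
    · rw [show (s * (t : G) * s⁻¹) * (s * t * s⁻¹) = s * (t * t) * s⁻¹ by group, htt]; group
    · rw [show (t : G) = s⁻¹ * (s * t * s⁻¹) * s by group, e]; group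
  intro x hx
  by_cases hxL : (⟨x, hx⟩ : X) ∈ L
  · exact hinv _ hxL
  · have hl : t * ⟨x, hx⟩ ∈ L := (Subgroup.mul_mem_iff_of_index_two hL).2 (iff_of_false htL hxL)
    have hi := hinv _ hl
    have hcomm : (t : G) * x = x * t := congrArg Subtype.val (hHc.is_comm.comm t ⟨x, hx⟩)
    rw [Subgroup.coe_mul] at hi
    calc s * x * s⁻¹ = (s * (t : G) * s⁻¹)⁻¹ * (s * ((t : G) * x) * s⁻¹) := by group
      _ = (t : G) * (((t : G) * x)⁻¹) := by rw [hi, hst, inv_inv]
      _ = (t : G) * (x * t)⁻¹ := by rw [hcomm]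
      _ = x⁻¹ := by group

end Cfsg.Agent.PermB.ZData
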